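import Mathlib
import Cfsg.Prelude.Def_HallClasses
import Cfsg.Agent.Lib.S4Cor.Basic
import Cfsg.Agent.Lib.Count.PiClosed
import Cfsg.Agent.Lib.CFun.Section
import Cfsg.Agent.Lib.Core.MinNormal
import Cfsg.Agent.Lib.SolvStruct.Subnormal
import Cfsg.Agent.S0877

/-! `π`-homogeneous groups (Arad): S4045, S4052. -/

set_option autoImplicit false
set_option linter.unusedSectionVars false

namespace CfsgLib.S4Cor

open Subgroup Cfsg CfsgLib.Sz CfsgLib.Count CfsgLib.Tech

universe u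

variable {G : Type u} [Group G] [Finite G] {π : Set ℕ}

theorem exists_lift {H : Type*} [Group H] (f : G →* H) (x : G) (h : PiNum π (orderOf (f x))) :
    ∃ y ∈ zpowers x, PiNum π (orderOf y) ∧ f y = f x := by
  induction hn : orderOf x using Nat.strong_induction_on generalizing x with
  | _ n ih =>
  by_cases hx : PiNum π (orderOf x)
  · exact ⟨x, mem_zpowers x, hx, rfl⟩
  simp only [PiNum, not_forall] at hx
  obtain ⟨p, hp, hd, hπ⟩ := hx
  obtain ⟨m, e⟩ := exists_pow_eq_self_of_coprime (x := f x)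
    ((hp.coprime_iff_not_dvd).mpr fun h1 => hπ (h p hp h1))
  have e' : f ((x ^ p) ^ m) = f x := by rw [map_pow, map_pow, e]
  obtain ⟨y, hy, h1, h2⟩ := ih _ (lt_of_le_of_lt (Nat.le_of_dvd (orderOf_pos _) (orderOf_pow_dvd m)) (by
    rw [orderOf_pow_of_dvd hp.ne_zero hd, hn]
    exact Nat.div_lt_self (hn ▸ orderOf_pos x) hp.one_lt)) ((x ^ p) ^ m) (e' ▸ h) rfl
  exact ⟨y, zpowers_le.mpr (pow_mem (pow_mem (mem_zpowers x) p) m) hy, h1, h2.trans e'⟩

theorem weakHom_quot (h : WeakHom π G) (L : Subgroup G) [L.Normal] : WeakHom π (G ⧸ L) := by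
  intro q hq hqπ Q hQ y hy hyN
  have := Fact.mk hq
  have hs := QuotientGroup.mk'_surjective L
  obtain ⟨T, hT⟩ := exists_isSylowIn q (Q.comap (QuotientGroup.mk' L))
  have hTQ : Q = T.map (QuotientGroup.mk' L) := by
    have := CFun.sylIn_map hT (QuotientGroup.mk' L)
    rw [map_comap_eq_self_of_surjective hs] at this
    exact this.eq_of_le hQ this.le le_rfl
  obtain ⟨x, rfl⟩ := hs y
  obtain ⟨n, hn, e⟩ := hT.frattini (le_normalizer_comap _ hyN)
  obtain ⟨t, ht, e'⟩ := hTQ.le hn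
  have e2 : QuotientGroup.mk' L (t⁻¹ * (n * x)) = QuotientGroup.mk' L x := by
    rw [map_mul, map_mul, map_inv, e', inv_mul_cancel_left]
  obtain ⟨z, hz, h1, h2⟩ := exists_lift (QuotientGroup.mk' L) (t⁻¹ * (n * x)) (e2 ▸ hy)
  have := h q hq hqπ T hT.pgroup z h1
    (zpowers_le.mpr (mul_mem (inv_mem (le_normalizer ht)) e) hz)
  rw [← e2, ← h2, hTQ]
  rintro _ ⟨s, hs, rfl⟩
  rw [← map_mul, this s hs, map_mul]

theorem piClosed_of_simple_comm (hs : IsSimpleGroup G) (hc : IsMulCommutative G) : PiClosed π G := by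
  have hp := exists_prime_card hs hc
  by_cases h : Nat.card G ∈ π
  · exact piClosed_of_piNum (by simpa using piNum_prime_pow hp h 1)
  · exact piClosed_of_piNum_compl (by simpa using piNum_prime_pow (π := πᶜ) hp h 1)

theorem card_quot_lt {N : Subgroup G} [N.Normal] (h : N ≠ ⊥) : Nat.card (G ⧸ N) < Nat.card G := by
  rw [card_eq_card_quotient_mul_card_subgroup N]
  exact lt_mul_of_one_lt_right Nat.card_pos ((one_lt_card_iff_ne_bot N).mpr h)

theorem card_lt_of_ne_top {N : Subgroup G} (h : N ≠ ⊤) : Nat.card N < Nat.card G :=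
  lt_of_le_of_ne (card_le_card_group N) fun e => h (eq_top_of_card_eq N e)

theorem simple_or (G : Type u) [Group G] : Subsingleton G ∨ IsSimpleGroup G ∨
    ∃ N : Subgroup G, N.Normal ∧ N ≠ ⊥ ∧ N ≠ ⊤ := by
  refine (subsingleton_or_nontrivial G).imp_right fun hn => or_iff_not_imp_right.mpr fun h =>
    @IsSimpleGroup.mk _ _ hn fun N hN => ?_
  by_contra hc
  exact h ⟨N, hN, (not_or.mp hc).1, (not_or.mp hc).2⟩

theorem piClosed_of_two (h : T3.{u}) (h2 : 2 ∈ π) (hw : WeakHom π G) (h3 : ¬ 3 ∣ Nat.card G) :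
    PiClosed π G := by
  induction hn : Nat.card G using Nat.strong_induction_on generalizing G with
  | _ n ih =>
  subst hn
  rcases simple_or G with hs | hs | ⟨N, hN, h1, h4⟩
  · exact piClosed_of_piNum fun p hp hd => absurd (Nat.card_unique (α := G) ▸ hd) hp.not_dvd_one
  · by_cases hc : IsMulCommutative G
    · exact piClosed_of_simple_comm hs hc
    refine piClosed_of_piNum fun p hp hd => by_contra fun hπ => ?_
    have := Fact.mk hp
    obtain ⟨x, hx⟩ := exists_prime_orderOf_dvd_card' p hd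
    have ho : Odd (orderOf x) := hx ▸ hp.odd_of_ne_two fun e => hπ (e ▸ h2)
    have hx1 : x ≠ 1 := fun e => hp.one_lt.ne (by rw [← hx, e, orderOf_one])
    obtain ⟨z, hz, e⟩ := exists_invert (h G hs hc h3) hx1 ho
    have := hw p hp hπ (zpowers x) (IsPGroup.of_card (n := 1) (by rw [Nat.card_zpowers, hx, pow_one])) z
      ((piNum_prime_pow Nat.prime_two h2 1).of_dvd (orderOf_dvd_of_pow_eq_one (by rw [pow_one, pow_two, hz])))
      (mem_normalizer_of_cj_le (by rw [cj_zpowers, e, zpowers_inv])) x (mem_zpowers x)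
    rw [← this, mul_inv_cancel_right, eq_inv_iff_mul_eq_one, ← pow_two] at e
    exact hx1 (orderOf_eq_one_iff.mp ((Nat.coprime_two_right.mpr ho).eq_one_of_dvd
      (orderOf_dvd_of_pow_eq_one e)))
  · exact piClosed_extension hw N
      (ih _ (card_lt_of_ne_top h4) (hw.subgroup N) (fun h => h3 (h.trans (card_subgroup_dvd_card N))) rfl)
      (ih _ (card_quot_lt h1) (weakHom_quot hw N) (fun h => h3 (h.trans (card_quotient_dvd_card N))) rfl)

theorem exists_normal_pi {N : Subgroup G} [N.Normal] (h1 : N ≠ ⊥) (h : PiClosed πᶜ N) :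
    ∃ M : Subgroup G, M.Normal ∧ M ≠ ⊥ ∧ (PiNum π (Nat.card M) ∨ PiNum πᶜ (Nat.card M)) := by
  obtain ⟨L, hL⟩ := h
  have := normal_of_mem_iff_piNum hL
  by_cases e : L = ⊥
  · have := piNum_index_of_mem_iff fun x hx => (hL x).mpr hx
    rw [e, index_bot, compl_compl] at this
    exact ⟨N, inferInstance, h1, Or.inl this⟩
  · exact ⟨L.map N.subtype, inferInstance, fun h => e ((map_eq_bot_iff_of_injective _ N.subtype_injective).mp h),
      Or.inr (by rw [Core.card_map_subtype]; exact piNum_card_subgroup fun x hx => (hL x).mp hx)⟩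

theorem exists_pi_lift {M : Subgroup G} [M.Normal] (h : PiNum π (Nat.card M) ∨ PiNum πᶜ (Nat.card M))
    {D : Subgroup (G ⧸ M)} (hD : PiNum π (Nat.card D)) :
    ∃ E : Subgroup G, PiNum π (Nat.card E) ∧ E.map (QuotientGroup.mk' M) = D := by
  have hs := QuotientGroup.mk'_surjective M
  rcases h with h | h
  · exact ⟨_, by rw [Core.card_comap_mk']; exact hD.mul h, map_comap_eq_self_of_surjective hs D⟩
  have hle := QuotientGroup.le_comap_mk' M D
  have hidx : M.relIndex (D.comap (QuotientGroup.mk' M)) = Nat.card D := by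
    have e1 := Core.card_mul_relIndex_of_le hle
    rw [Core.card_comap_mk', mul_comm] at e1
    exact Nat.eq_of_mul_eq_mul_right Nat.card_pos e1
  obtain ⟨E, -, -, h1, h2⟩ := Coprime.exists_complement_of_le_normalizer hle le_normalizer_of_normal
    (by rw [hidx]; exact (hD.coprime h).symm)
  refine ⟨E, by rwa [h2, hidx], ?_⟩
  have := congrArg (map (QuotientGroup.mk' M)) h1
  rwa [Subgroup.map_sup, QuotientGroup.map_mk'_self, bot_sup_eq, map_comap_eq_self_of_surjective hs] at this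

theorem piClosed_of_pi {M : Subgroup G} (h : PiNum π (Nat.card M) ∨ PiNum πᶜ (Nat.card M)) :
    PiClosed πᶜ M := h.elim (fun h => piClosed_of_piNum_compl (by rwa [compl_compl])) piClosed_of_piNum

/-- every `π`-subgroup lies in a `π`-subgroup of odd index -/
def E2 (π : Set ℕ) (G : Type u) [Group G] : Prop := ∀ D : Subgroup G, PiNum π (Nat.card D) →
  ∃ H : Subgroup G, PiNum π (Nat.card H) ∧ D ≤ H ∧ ¬ 2 ∣ H.index

theorem sz_pi {F : Type*} [Field F] [Finite F] (τ : Tits F) (ht : ∃ t : F, t ≠ 0 ∧ t ≠ 1) (h2 : 2 ∈ π)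
    (hw : WeakHom πᶜ τ.grp) (he : E2 π τ.grp) : PiNum π (Nat.card τ.grp) := by
  have hH : PiNum π (Nat.card τ.H) := fun p hp hd => by_contra fun hπ => by
    have := Fact.mk hp
    obtain ⟨x, hx, ho⟩ := Core.exists_mem_orderOf_eq_of_dvd_card hp hd
    have h1 := hw 2 Nat.prime_two (not_not.mpr h2) τ.U τ.isPGroup_U x
      (by simpa [ho] using piNum_prime_pow (π := πᶜ) hp hπ 1) (τ.normalizer_U ▸ τ.H_le_B hx) _ (τ.S_mem_U 0 1)
    rw [Tits.eq_one_of_mem_U_of_mem_H (Tits.mem_U_of_comm (τ.S_mem_U 0 1) τ.S_zero_one_ne_one h1.symm) hx,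
      orderOf_one] at ho
    exact hp.one_lt.ne ho
  obtain ⟨H, h3, h4, h5⟩ := he (normalizer (τ.H : Set τ.grp)) (by
    rw [← Core.card_mul_relIndex_of_le le_normalizer, Tits.relIndex_H ht]
    exact hH.mul (by simpa using piNum_prime_pow Nat.prime_two h2 1))
  obtain ⟨S, hS⟩ := exists_isSylowIn 2 H
  obtain ⟨g, -, e⟩ := (hS.trans le_top (by rwa [relIndex_top_right])).exists_cj_eq
    (IsSylowIn.of_sylow_top τ.sylowU)
  rcases Tits.le_B_or_eq_top ht (K := cj g H) (τ.coe_sylowU ▸ e ▸ cj_mono g hS.le) with h6 | h6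
  · obtain ⟨t, h0, h1⟩ := ht
    have h7 := cj_le_iff.mp h6 _ (h4 τ.T_mem_normalizer_H)
    have h8 := cj_le_iff.mp h6 _ (h4 (le_normalizer (τ.M_mem_H (Units.mk0 t h0))))
    rw [Tits.mem_B, mul_smul, mul_smul, smul_eq_iff_eq_inv_smul] at h7 h8
    generalize g⁻¹ • (Tits.Pt.inf : τ.Pt) = ω at h7 h8
    cases ω with
    | inf => exact absurd h7 τ.T_not_mem_B
    | aff x y =>
      rcases Tits.M_smul_aff_eq h8 with e | ⟨rfl, rfl⟩
      · exact absurd (congrArg Units.val e) h1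
      · simp at h7
  · rwa [← card_cj g, h6, card_top] at h3

theorem piClosed_of_e2 (h : T3.{u}) (h2 : 2 ∈ π) (hw : WeakHom πᶜ G) (h3 : ¬ 3 ∣ Nat.card G)
    (he : E2 π G) : PiClosed πᶜ G := by
  induction hn : Nat.card G using Nat.strong_induction_on generalizing G with
  | _ n ih =>
  subst hn
  rcases simple_or G with hs | hs | ⟨N, hN, h1, h4⟩
  · exact piClosed_of_piNum fun p hp hd => absurd (Nat.card_unique (α := G) ▸ hd) hp.not_dvd_one
  · by_cases hc : IsMulCommutative G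
    · exact piClosed_of_simple_comm hs hc
    obtain ⟨F, _, _, m, hm, hF, ⟨e⟩⟩ := sz_model (h G hs hc h3)
    refine piClosed_of_piNum_compl ?_
    rw [compl_compl, Nat.card_congr e.toEquiv]
    refine sz_pi _ (exists_ne_zero_one hm hF) h2 (fun q hq hπ Q hQ y hy hn x hx => ?_) fun D hD => ?_
    · have := hw q hq hπ (Q.comap e.toMonoidHom) (hQ.comap_of_injective _ e.injective) (e.symm y)
        (by rwa [e.symm.orderOf_eq]) (le_normalizer_comap _ (by simpa using hn)) (e.symm x) (by simpa using hx)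
      simpa using congrArg e this
    · obtain ⟨H, h5, h6, h7⟩ := he (D.map e.symm.toMonoidHom) (by rwa [card_map_of_injective e.symm.injective])
      exact ⟨H.map e.toMonoidHom, by rwa [card_map_of_injective e.injective],
        fun x hx => ⟨e.symm x, h6 ⟨x, hx, rfl⟩, by simp⟩, (index_map_equiv H e).symm ▸ h7⟩
  obtain ⟨M, hM, h5, h6⟩ := exists_normal_pi h1 (ih _ (card_lt_of_ne_top h4) (hw.subgroup N)
    (fun h => h3 (h.trans (card_subgroup_dvd_card N))) (fun D hD => by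
      obtain ⟨H, h5, h6, h7⟩ := he (D.map N.subtype) (by rwa [Core.card_map_subtype])
      exact ⟨H.subgroupOf N, h5.of_dvd (card_comap_dvd_of_injective _ _ N.subtype_injective),
        map_le_iff_le_comap.mp h6, fun h => h7 (h.trans (SolvStruct.relIndex_dvd_index_of_normal_right H N))⟩) rfl)
  refine piClosed_extension hw M (piClosed_of_pi h6) (ih _ (card_quot_lt h5) (weakHom_quot hw M)
    (fun h => h3 (h.trans (card_quotient_dvd_card M))) (fun D hD => ?_) rfl)
  obtain ⟨E, hE, rfl⟩ := exists_pi_lift h6 hD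
  obtain ⟨H, h7, h8, h9⟩ := he E hE
  exact ⟨_, h7.of_dvd (card_map_dvd _ _), map_mono h8,
    fun h => h9 (h.trans (index_map_dvd _ (QuotientGroup.mk'_surjective M)))⟩

/-- `H` contains a conjugate of every `π`-subgroup -/
structure DP (π : Set ℕ) (H : Subgroup G) : Prop where
  pi : PiNum π (Nat.card H)
  conj : ∀ D : Subgroup G, PiNum π (Nat.card D) → ∃ g, cj g D ≤ H

theorem exists_dp (h : IsDPiGroup π G) : ∃ H : Subgroup G, DP π H := by
  have key : ∀ D : Subgroup G, PiNum π (Nat.card D) → ∃ H, D ≤ H ∧ Maximal (IsPiSubgroup π) H :=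
    fun D hD => Finite.exists_le_maximal hD
  obtain ⟨H, -, hH⟩ := key ⊥ fun p hp hd => absurd (card_bot (G := G) ▸ hd) hp.not_dvd_one
  refine ⟨H, hH.1, fun D hD => ?_⟩
  obtain ⟨K, h1, h2⟩ := key D hD
  obtain ⟨g, rfl⟩ := h K H h2 hH
  exact ⟨g, map_mono h1⟩

theorem piNum_of_isPGroup {p : ℕ} (hp : p.Prime) (h : p ∈ π) {Q : Subgroup G} (hQ : IsPGroup p Q) :
    PiNum π (Nat.card Q) := by
  have := Fact.mk hp
  obtain ⟨k, hk⟩ := hQ.exists_card_eq
  exact hk ▸ piNum_prime_pow hp h k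

theorem DP.index {H : Subgroup G} (h : DP π H) : PiNum πᶜ H.index := fun p hp hd hπ => by
  have := Fact.mk hp
  obtain ⟨S⟩ : Nonempty (Sylow p G) := inferInstance
  obtain ⟨g, hg⟩ := h.conj S (piNum_of_isPGroup hp hπ S.isPGroup')
  exact (g • S).not_dvd_index (hd.trans (index_dvd_of_le hg))

theorem DP.e2 {H : Subgroup G} (h : DP π H) (h2 : 2 ∈ π) : E2 π G := fun D hD => by
  obtain ⟨g, hg⟩ := h.conj D hD
  refine ⟨cj g⁻¹ H, by rw [card_cj]; exact h.pi, cj_inv_cj g D ▸ cj_mono _ hg, fun hd => ?_⟩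
  exact h.index 2 Nat.prime_two (index_map_equiv H (MulAut.conj g⁻¹) ▸ hd) h2

section simple

variable [hs : IsSimpleGroup G] {H : Subgroup G} (h : DP π H) (hH : H ≠ ⊤)
  (hc : ∀ M : Subgroup G, M ≠ ⊤ → PiClosed πᶜ M)
include h hH hc

theorem DP.split {U : Subgroup G} (hU : PiNum π (Nat.card U)) (h1 : U ≠ ⊥) : ∃ O K : Subgroup G,
    PiNum πᶜ (Nat.card O) ∧ PiNum π (Nat.card K) ∧ O ≤ centralizer (U : Set G) ∧
      normalizer (U : Set G) ≤ normalizer (O : Set G) ∧ O ⊔ K = normalizer (U : Set G) ∧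
      PiNum πᶜ (K.relIndex (normalizer (U : Set G))) ∧ U ≤ K := by
  obtain ⟨L, hL⟩ := hc (normalizer (U : Set G)) fun e => by
    obtain ⟨g, hg⟩ := h.conj U hU
    rw [((normalizer_eq_top_iff.mp e).eq_bot_or_eq_top).resolve_left h1, cj_top] at hg
    exact hH (top_le_iff.mp hg)
  have := normal_of_mem_iff_piNum hL
  have hO : PiNum πᶜ (Nat.card (L.map (Subgroup.subtype _))) := by
    rw [Core.card_map_subtype]; exact piNum_card_subgroup fun x hx => (hL x).mp hx
  have e : (L.map (Subgroup.subtype _)).subgroupOf (normalizer (U : Set G)) = L :=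
    comap_map_eq_self_of_injective (Subgroup.subtype_injective _) L
  have hn : normalizer (U : Set G) ≤ normalizer (L.map (Subgroup.subtype _) : Set G) :=
    (normal_subgroupOf_iff_le_normalizer (map_subtype_le L)).mp (e.symm ▸ inferInstance)
  have hi : PiNum π ((L.map (Subgroup.subtype _)).relIndex (normalizer (U : Set G))) := by
    have := piNum_index_of_mem_iff fun x hx => (hL x).mpr hx
    rwa [relIndex, e, ← compl_compl π]
  obtain ⟨K, h2, h3, h4, h5⟩ := Coprime.exists_complement_of_le_normalizer (map_subtype_le L) hn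
    (hi.coprime hO).symm
  have h6 := Core.card_mul_relIndex_of_le h2
  rw [← Core.card_mul_relIndex_of_le (map_subtype_le L), ← h5, mul_comm] at h6
  have h7 := Nat.eq_of_mul_eq_mul_right Nat.card_pos h6 ▸ hO
  refine ⟨_, K, hO, h5 ▸ hi, Core.le_centralizer_of_le_normalizer_of_disjoint (map_subtype_le L)
    (le_normalizer.trans hn) (Coprime.inf_eq_bot_of_coprime' (hU.coprime hO).symm), hn, h4, h7,
    le_sup_right.trans (relIndex_eq_one.mp (Nat.Coprime.eq_one_of_dvd ((((h5 ▸ hi : PiNum π (Nat.card K)).mul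
      hU).of_dvd ((relIndex_dvd_card _ _).trans (Core.card_sup_dvd_of_le_normalizer h2))).coprime h7)
      (Dvd.intro _ (relIndex_mul_relIndex K _ _ le_sup_left (sup_le h2 le_normalizer)))))⟩

theorem DP.cent_trans {p : ℕ} (hp : p.Prime) (hπ : p ∈ π) (Q : Subgroup G) (hQ : IsPGroup p Q) (h1 : Q ≠ ⊥)
    {g g' : G} (hg : Q ≤ cj g H) (hg' : Q ≤ cj g' H) :
    ∃ c ∈ centralizer (Q : Set G), cj c (cj g H) = cj g' H := by
  have := Fact.mk hp
  induction Q using WellFoundedGT.induction generalizing g g' with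
  | _ Q ih =>
  obtain ⟨O, K, -, h3, h4, h5, h6, h7, hQK⟩ := h.split hH hc (piNum_of_isPGroup hp hπ hQ) h1
  obtain ⟨x, hx⟩ := h.conj K h3
  have hK : K ≤ cj x⁻¹ H := cj_inv_cj x K ▸ cj_mono _ hx
  have hKN : K ≤ normalizer (Q : Set G) := h6 ▸ le_sup_right
  obtain ⟨R, hR⟩ := exists_isSylowIn p K
  have hR' := hR.trans hKN fun hd => h7 p hp hd hπ
  have dec : ∀ n ∈ normalizer (Q : Set G), ∃ o ∈ O, ∃ k ∈ K, o * k = n := fun n hn =>
    (Core.mem_sup_of_le_normalizer_left (hKN.trans h5)).mp (h6 ▸ hn)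
  suffices key : ∀ g, Q ≤ cj g H → ∃ c ∈ centralizer (Q : Set G), cj c (cj x⁻¹ H) = cj g H by
    obtain ⟨c, hc, e⟩ := key g hg
    obtain ⟨c', hc', e'⟩ := key g' hg'
    exact ⟨c' * c⁻¹, mul_mem hc' (inv_mem hc), by rw [← e, cj_mul, cj_inv_cj, e']⟩
  intro g hg
  by_cases hS : IsSylowIn p Q (cj g H)
  · have h8 : IsSylowIn p (cj (g * x) Q) (cj g H) := by
      refine hS.of_card_le (isPGroup_cj _ hQ) ?_ (card_cj _ _).ge
      rw [cj_mul]
      exact cj_mono g ((cj_mono x hQK).trans hx)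
    obtain ⟨y, hy, e⟩ := h8.exists_cj_eq hS
    obtain ⟨o, ho, k, hk, e'⟩ := dec (y * (g * x)) (mem_normalizer_iff_cj.mpr (by rw [cj_mul, e]))
    refine ⟨o, h4 ho, ?_⟩
    rw [← cj_eq_of_mem (hK hk), ← cj_mul, e', cj_mul, cj_mul, cj_cj_inv, cj_eq_of_mem hy]
  · obtain ⟨P, h8, h9, h10, h11⟩ := exists_lt_pgroup_normalizer hQ hg hS
    obtain ⟨n, hn, e⟩ := hR'.exists_cj_le h8 h11
    obtain ⟨o, ho, k, hk, e'⟩ := dec n⁻¹ (inv_mem hn)
    have hlt : Q < cj o⁻¹ P := by
      rw [← mem_normalizer_iff_cj.mp (centralizer_le_normalizer _ (inv_mem (h4 ho)))]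
      exact lt_of_le_of_ne (cj_mono _ h9.le) fun e => h9.ne (cj_injective _ e)
    obtain ⟨c, hc, e2⟩ := ih _ hlt (isPGroup_cj _ h8) (bot_le.trans_lt hlt).ne' (g := x⁻¹) (g' := o⁻¹ * g) (by
      rw [show o⁻¹ = k * n by rw [inv_eq_iff_mul_eq_one, ← mul_assoc, e', inv_mul_cancel], cj_mul,
        ← cj_eq_of_mem (hK hk)]
      exact cj_mono k (e.trans (hR.le.trans hK))) (by rw [cj_mul]; exact cj_mono _ h10)
    exact ⟨o * c, mul_mem (h4 ho) (centralizer_le hlt.le hc), by rw [cj_mul, e2, cj_mul, cj_cj_inv]⟩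

theorem DP.fusion {x g : G} (hx : x ∈ H) (hy : g * x * g⁻¹ ∈ H) :
    ∃ k ∈ H, k * x * k⁻¹ = g * x * g⁻¹ := by
  rcases eq_or_ne x 1 with rfl | h1
  · exact ⟨1, one_mem _, by simp⟩
  obtain ⟨p, hp, hd⟩ := Nat.exists_prime_and_dvd (orderOf_eq_one_iff.not.mpr h1)
  have hπ := h.pi p hp (hd.trans (H.orderOf_dvd_natCard hx))
  have ho := orderOf_pow_orderOf_div (orderOf_pos x).ne' hd
  set z := x ^ (orderOf x / p) with hz
  have := Fact.mk hp
  have hQ : IsPGroup p (zpowers z) := IsPGroup.of_card (n := 1) (by rw [Nat.card_zpowers, ho, pow_one])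
  have hQ1 : zpowers z ≠ ⊥ := zpowers_ne_bot.mpr fun e => hp.one_lt.ne (by rw [← ho, e, orderOf_one])
  have hzH : zpowers z ≤ cj 1 H := by rw [cj_one]; exact zpowers_le.mpr (pow_mem hx _)
  obtain ⟨c, hc1, e⟩ := h.cent_trans hH hc hp hπ _ hQ hQ1 hzH (g' := g⁻¹) (zpowers_le.mpr (mem_cj.mpr (by
    rw [inv_inv, hz, ← conj_pow]; exact pow_mem hy _)))
  have hn : g * c ∈ normalizer (H : Set G) := mem_normalizer_iff_cj.mpr (by
    rw [cj_mul, ← cj_one H, e, cj_cj_inv, cj_one])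
  obtain ⟨O, K, h2, h3, h4, h5, h6, -, hQK⟩ := h.split hH hc (piNum_of_isPGroup hp hπ hQ) hQ1
  obtain ⟨O', K', -, h3', h4', h5', h6', -⟩ := h.split hH hc h.pi fun e => h1 (mem_bot.mp (e ▸ hx))
  have hK' : K' ≤ H := by
    have hle : K' ≤ normalizer (H : Set G) := h6' ▸ le_sup_right
    obtain ⟨y, hy⟩ := h.conj _ ((h3'.mul h.pi).of_dvd (Core.card_sup_dvd_of_le_normalizer hle))
    exact le_sup_left.trans (eq_of_le_of_card_ge le_sup_right ((card_cj y _).ge.trans (card_le_of_le hy))).ge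
  obtain ⟨k', hk', o', ho', e'⟩ := (Core.mem_sup_of_le_normalizer_right
    ((h6' ▸ le_sup_right : K' ≤ _).trans h5')).mp (sup_comm O' K' ▸ h6' ▸ hn)
  obtain ⟨y, hy'⟩ := h.conj K h3
  have hKN : K ≤ normalizer (zpowers z : Set G) := h6 ▸ le_sup_right
  obtain ⟨d, hd1, e1⟩ := h.cent_trans hH hc hp hπ _ hQ hQ1 (g := y⁻¹) (le_trans hQK
    (cj_inv_cj y K ▸ cj_mono _ hy')) hzH
  · have hd2 := centralizer_le_normalizer _ hd1
    obtain ⟨o, ho, k, hk, e2⟩ := (Core.mem_sup_of_le_normalizer_left (hKN.trans h5)).mp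
      (h6 ▸ mul_mem (mul_mem (inv_mem hd2) (inv_mem (centralizer_le_normalizer _ hc1))) hd2)
    have hkH : d * k * d⁻¹ ∈ H := by
      rw [← cj_one H, ← e1]; exact conj_mem_cj.mpr ((cj_inv_cj y K ▸ cj_mono _ hy' :) hk)
    have hoO : d * o * d⁻¹ ∈ O := (mem_normalizer_iff.mp (h5 hd2) o).mp ho
    have e3 : c⁻¹ = d * o * d⁻¹ * (d * k * d⁻¹) := by rw [conj_mul, e2]; group
    have hkN : d * k * d⁻¹ ∈ normalizer (zpowers z : Set G) := mul_mem (mul_mem hd2 (hKN hk)) (inv_mem hd2)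
    generalize d * k * d⁻¹ = k at hkH e3 hkN
    generalize d * o * d⁻¹ = o at hoO e3
    have h7 : c⁻¹ * x * c ∈ H := by
      have := (mem_normalizer_iff.mp (inv_mem hn) _).mp hy
      rwa [show (g * c)⁻¹ * (g * x * g⁻¹) * (g * c)⁻¹⁻¹ = c⁻¹ * x * c by group] at this
    have hxN : k * x * k⁻¹ ∈ normalizer (zpowers z : Set G) := mul_mem (mul_mem hkN
      (centralizer_le_normalizer _ (by
        rintro _ ⟨i, rfl⟩; exact ((Commute.refl x).pow_left _).zpow_left i))) (inv_mem hkN)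
    have h8 : c⁻¹ * x * c * (k * x * k⁻¹)⁻¹ ∈ H ⊓ O := mem_inf.mpr ⟨mul_mem h7 (inv_mem (mul_mem
      (mul_mem hkH hx) (inv_mem hkH))), by
      rw [show c⁻¹ * x * c * (k * x * k⁻¹)⁻¹ = o * (k * x * k⁻¹ * o⁻¹ * (k * x * k⁻¹)⁻¹) by
        rw [← inv_inv c, e3]; group]
      exact mul_mem hoO ((mem_normalizer_iff.mp (h5 hxN) _).mp (inv_mem hoO))⟩
    rw [Coprime.inf_eq_bot_of_coprime' (h.pi.coprime h2), mem_bot, mul_inv_eq_one] at h8
    refine ⟨k' * k, mul_mem (hK' hk') hkH, ?_⟩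
    have h9 := h4' ho' _ h7
    rw [show g * x * g⁻¹ = g * c * (c⁻¹ * x * c) * (g * c)⁻¹ by group, ← e', mul_assoc k' o', ← h9, h8]
    group

theorem DP.piClosed : PiClosed πᶜ G := by
  obtain ⟨K, hK, h1, h2⟩ := Cfsg.Agent.S0877.result H (h.pi.coprime h.index) (fun x hx y hy hxy => by
    obtain ⟨g, rfl⟩ := isConj_iff.mp hxy
    exact h.fusion hH hc hx hy) fun E _ _ _ hE => h.conj E (h.pi.of_dvd hE)
  rcases hK.eq_bot_or_eq_top with rfl | rfl
  · exact absurd (by simpa using h1) hH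
  · have := h.index
    rw [show H = ⊥ by simpa using h2, index_bot] at this
    exact piClosed_of_piNum this

end simple

theorem PiClosed.quot (h : PiClosed π G) {H : Type*} [Group H] {f : G →* H} (hf : Function.Surjective f) :
    PiClosed π H := by
  obtain ⟨K, hK⟩ := h
  refine ⟨K.map f, fun y => ⟨?_, fun hy => ?_⟩⟩
  · rintro ⟨x, hx, rfl⟩
    exact ((hK x).mp hx).of_dvd (orderOf_map_dvd _ _)
  · obtain ⟨x, rfl⟩ := hf y
    obtain ⟨z, -, h1, h2⟩ := exists_lift f x hy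
    exact ⟨z, (hK z).mpr h1, h2⟩

theorem piClosed_of_dp (hw : WeakHom πᶜ G) {H : Subgroup G} (h : DP π H)
    (hc : ∀ M : Subgroup G, M ≠ ⊤ → PiClosed πᶜ M) : PiClosed πᶜ G := by
  induction hn : Nat.card G using Nat.strong_induction_on generalizing G with
  | _ n ih =>
  subst hn
  rcases simple_or G with hs | hs | ⟨N, hN, h1, h4⟩
  · exact piClosed_of_piNum fun p hp hd => absurd (Nat.card_unique (α := G) ▸ hd) hp.not_dvd_one
  · by_cases hH : H = ⊤
    · have := h.pi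
      rw [hH, card_top] at this
      exact piClosed_of_piNum_compl (by rwa [compl_compl])
    · exact h.piClosed hH hc
  obtain ⟨M, hM, h5, h6⟩ := exists_normal_pi h1 (hc N h4)
  have hs := QuotientGroup.mk'_surjective M
  refine piClosed_extension hw M (piClosed_of_pi h6) (ih _ (card_quot_lt h5) (weakHom_quot hw M)
    (H := H.map (QuotientGroup.mk' M)) ⟨h.pi.of_dvd (card_map_dvd _ _), fun D hD => ?_⟩ (fun K hK => ?_) rfl)
  · obtain ⟨E, hE, rfl⟩ := exists_pi_lift h6 hD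
    obtain ⟨g, hg⟩ := h.conj E hE
    refine ⟨g, cj_le_iff.mpr ?_⟩
    rintro _ ⟨x, hx, rfl⟩
    exact ⟨_, cj_le_iff.mp hg x hx, rfl⟩
  · exact PiClosed.quot (hc (K.comap (QuotientGroup.mk' M)) fun e => hK (comap_injective hs (by rw [e, comap_top])))
      (MonoidHom.subgroupComap_surjective_of_surjective _ K hs)

/-- the hypothesis of the statements -/
def Hom (π : Set ℕ) (G : Type u) [Group G] : Prop := ∀ H : Subgroup G, H ≠ ⊥ →
  (∀ p : ℕ, p.Prime → p ∣ Nat.card H → p ∈ π) →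
    ∀ p : ℕ, p.Prime → p ∣ (centralizer (H : Set G)).relIndex (normalizer (H : Set G)) → p ∈ π

theorem Hom.weak (h : Hom π G) : WeakHom πᶜ G := weakHom_of_hom fun H h1 h2 p hp hd =>
  not_not.mpr (h H h1 (fun q hq hd => not_not.mp (h2 q hq hd)) p hp hd)

theorem s4045 (h : T3.{u}) (hodd : ∀ p ∈ π, p.Prime ∧ p ≠ 2) (h3 : ¬ 3 ∣ Nat.card G) (hhom : Hom π G) :
    PiClosed πᶜ G := piClosed_of_two h (fun h2 => (hodd 2 h2).2 rfl) hhom.weak h3

theorem s4052 (h : T3.{u}) (hD : IsDPiGroup π G) (hhom : Hom π G)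
    (hcase : ¬ 3 ∣ Nat.card G ∨ ∀ M : Subgroup G, M ≠ ⊤ → PiClosed πᶜ M) : PiClosed πᶜ G := by
  obtain ⟨H, hH⟩ := exists_dp hD
  rcases hcase with h3 | hc
  · by_cases h2 : 2 ∈ π
    exacts [piClosed_of_e2 h h2 hhom.weak h3 (hH.e2 h2), piClosed_of_two h h2 hhom.weak h3]
  · exact piClosed_of_dp hhom.weak hH hc

end CfsgLib.S4Cor
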